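import Mathlib

/-!
The dual (conjugate reciprocal) of a polynomial, with respect to a field automorphism `σ` with
`σ² = 1`, and the factorisation of a self-dual polynomial.
-/

set_option autoImplicit false

namespace Cfsg.Agent.H159

open Polynomial

variable {F : Type*} [Field F] (σ : F →+* F)

/-- The (unnormalised) conjugate reciprocal polynomial. -/
noncomputable def dl (a : F[X]) : F[X] := (a.map σ).reverse

theorem dl_mul (a b : F[X]) : dl σ (a * b) = dl σ a * dl σ b := by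
  unfold dl
  rw [Polynomial.map_mul, reverse_mul_of_domain]

theorem dl_one : dl σ (1 : F[X]) = 1 := by
  unfold dl
  rw [Polynomial.map_one, ← C_1, reverse_C]

theorem dl_pow (a : F[X]) (k : ℕ) : dl σ (a ^ k) = dl σ a ^ k := by
  induction k with
  | zero => rw [pow_zero, pow_zero, dl_one]
  | succ k ih => rw [pow_succ, pow_succ, dl_mul, ih]

theorem coeff_zero_dl (a : F[X]) : (dl σ a).coeff 0 = σ a.leadingCoeff := by
  unfold dl
  rw [coeff_zero_reverse, leadingCoeff_map]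

theorem natDegree_dl {a : F[X]} (ha : a.coeff 0 ≠ 0) : (dl σ a).natDegree = a.natDegree := by
  unfold dl
  rw [reverse_natDegree, natDegree_map]
  have : (a.map σ).natTrailingDegree = 0 := by
    rw [natTrailingDegree_eq_zero]
    right
    rw [coeff_map]
    simpa using ha
  omega

theorem coeff_zero_dl_ne {a : F[X]} (ha : a ≠ 0) : (dl σ a).coeff 0 ≠ 0 := by
  rw [coeff_zero_dl]
  simpa using ha

theorem dl_ne_zero {a : F[X]} (ha : a ≠ 0) : dl σ a ≠ 0 := by
  intro h
  have := coeff_zero_dl_ne σ ha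
  rw [h, coeff_zero] at this
  exact this rfl

theorem dl_dl (hσ : ∀ c, σ (σ c) = c) {a : F[X]} (ha : a.coeff 0 ≠ 0) : dl σ (dl σ a) = a := by
  have h1 : (dl σ a).map σ = a.reverse := by
    unfold dl
    ext i
    rw [coeff_map, coeff_reverse, coeff_reverse, coeff_map, hσ, natDegree_map]
  have h2 : dl σ (dl σ a) = (a.reverse).reverse := by
    rw [← h1]; rfl
  rw [h2]
  ext i
  rw [coeff_reverse, coeff_reverse, reverse_natDegree]
  have h3 : a.natTrailingDegree = 0 := by
    rw [natTrailingDegree_eq_zero]; right; exact ha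
  rw [h3, Nat.sub_zero, revAt_invol]

theorem isUnit_dl {a : F[X]} (h : IsUnit a) : IsUnit (dl σ a) := by
  obtain ⟨c, hc, rfl⟩ := Polynomial.isUnit_iff.1 h
  unfold dl
  rw [map_C, reverse_C, isUnit_C]
  exact hc.map σ

theorem dl_dvd {a b : F[X]} (h : a ∣ b) : dl σ a ∣ dl σ b := by
  obtain ⟨c, rfl⟩ := h
  exact ⟨dl σ c, dl_mul σ a c⟩

theorem dl_associated {a b : F[X]} (h : Associated a b) : Associated (dl σ a) (dl σ b) := by
  obtain ⟨u, rfl⟩ := h
  rw [dl_mul]
  exact (associated_mul_unit_right _ _ (isUnit_dl σ u.isUnit))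

theorem isUnit_of_dl (hσ : ∀ c, σ (σ c) = c) {a : F[X]} (ha : a.coeff 0 ≠ 0)
    (h : IsUnit (dl σ a)) : IsUnit a := by
  have := isUnit_dl σ h
  rwa [dl_dl σ hσ ha] at this

theorem dl_irreducible (hσ : ∀ c, σ (σ c) = c) {f : F[X]} (hf : Irreducible f)
    (h0 : f.coeff 0 ≠ 0) : Irreducible (dl σ f) := by
  constructor
  · intro h
    exact hf.not_isUnit (isUnit_of_dl σ hσ h0 h)
  · intro b c hbc
    have hbc0 : (b * c).coeff 0 ≠ 0 := by
      rw [← hbc]; exact coeff_zero_dl_ne σ hf.ne_zero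
    rw [mul_coeff_zero] at hbc0
    have hb0 : b.coeff 0 ≠ 0 := left_ne_zero_of_mul hbc0
    have hc0 : c.coeff 0 ≠ 0 := right_ne_zero_of_mul hbc0
    have h1 : f = dl σ b * dl σ c := by
      rw [← dl_mul, ← hbc, dl_dl σ hσ h0]
    rcases hf.isUnit_or_isUnit h1 with h | h
    · exact Or.inl (isUnit_of_dl σ hσ hb0 h)
    · exact Or.inr (isUnit_of_dl σ hσ hc0 h)

/-- **Factorisation of a self-dual polynomial** along an irreducible factor. -/
theorem selfdual_factor (hσ : ∀ c, σ (σ c) = c) {μ f : F[X]} (hμ0 : μ.coeff 0 ≠ 0)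
    (hμ : Associated (dl σ μ) μ) (hf : Irreducible f) (hdvd : f ∣ μ) :
    ∃ (a b : F[X]) (k : ℕ), k ≠ 0 ∧ μ = a * b ∧ IsCoprime a b ∧ Associated (dl σ a) a ∧
      Associated (dl σ b) b ∧
      ((a = f ^ k ∧ Associated (dl σ f) f) ∨ (a = f ^ k * (dl σ f) ^ k ∧ IsCoprime f (dl σ f))) := by
  have hμne : μ ≠ 0 := by rintro rfl; exact hμ0 (coeff_zero 0)
  have hf0 : f.coeff 0 ≠ 0 := by
    obtain ⟨c, rfl⟩ := hdvd
    rw [mul_coeff_zero] at hμ0
    exact left_ne_zero_of_mul hμ0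
  have hf' := dl_irreducible σ hσ hf hf0
  obtain ⟨k, b, hb, hfb⟩ := WfDvdMonoid.max_power_factor hμne hf
  have hk : k ≠ 0 := by
    rintro rfl
    rw [pow_zero, one_mul] at hfb
    rw [hfb] at hdvd
    exact hb hdvd
  have hb0 : b.coeff 0 ≠ 0 := by
    rw [hfb, mul_coeff_zero] at hμ0
    exact right_ne_zero_of_mul hμ0
  have hbne : b ≠ 0 := by rintro rfl; exact hb0 (coeff_zero 0)
  have hcop : IsCoprime f b := (hf.coprime_iff_not_dvd).2 hb
  by_cases hff : f ∣ dl σ f
  · -- `f` is self-dual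
    have hass : Associated (dl σ f) f := by
      have h1 : Associated f (dl σ f) := hf.associated_of_dvd hf' hff
      exact h1.symm
    refine ⟨f ^ k, b, k, hk, hfb, hcop.pow_left, ?_, ?_, Or.inl ⟨rfl, hass⟩⟩
    · rw [dl_pow]; exact hass.pow_pow
    · rw [hfb, dl_mul, dl_pow] at hμ
      exact hμ.of_mul_left (hass.pow_pow) (pow_ne_zero _ (dl_ne_zero σ hf.ne_zero))
  · have hcff : IsCoprime f (dl σ f) := (hf.coprime_iff_not_dvd).2 hff
    have h1 : (dl σ f) ^ k ∣ b := by
      have h2 : (dl σ f) ^ k ∣ μ := by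
        refine dvd_trans ?_ hμ.dvd
        rw [hfb, dl_mul, dl_pow]
        exact Dvd.intro _ rfl
      rw [hfb] at h2
      exact (hcff.symm.pow).dvd_of_dvd_mul_left h2
    obtain ⟨b', hb'⟩ := h1
    have hb'0 : b'.coeff 0 ≠ 0 := by
      rw [hb', mul_coeff_zero] at hb0
      exact right_ne_zero_of_mul hb0
    have hfac : μ = f ^ k * (dl σ f) ^ k * b' := by rw [hfb, hb', mul_assoc]
    have hself : Associated (dl σ (f ^ k * (dl σ f) ^ k)) (f ^ k * (dl σ f) ^ k) := by
      rw [dl_mul, dl_pow, dl_pow, dl_dl σ hσ hf0, mul_comm]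
    have hb's : Associated (dl σ b') b' := by
      rw [hfac, dl_mul] at hμ
      exact hμ.of_mul_left hself (dl_ne_zero σ (mul_ne_zero (pow_ne_zero _ hf.ne_zero)
        (pow_ne_zero _ (dl_ne_zero σ hf.ne_zero))))
    have hfb' : ¬ f ∣ b' := fun h => hb (h.trans (Dvd.intro_left _ hb'.symm))
    have hfb'' : ¬ dl σ f ∣ b' := by
      intro h
      have h3 := dl_dvd σ h
      rw [dl_dl σ hσ hf0] at h3
      exact hfb' (h3.trans hb's.dvd)
    refine ⟨f ^ k * (dl σ f) ^ k, b', k, hk, hfac, ?_, hself, hb's, Or.inr ⟨rfl, hcff⟩⟩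
    exact IsCoprime.mul_left ((hf.coprime_iff_not_dvd).2 hfb').pow_left
      ((hf'.coprime_iff_not_dvd).2 hfb'').pow_left

end Cfsg.Agent.H159
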