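import Cfsg.Agent.H159.Dual

/-!
Roots of irreducible polynomials over finite fields: conjugates are `q`-powers; duals.
-/

set_option autoImplicit false

namespace Cfsg.Agent.H159

open Polynomial Module

variable {F : Type*} [Field F]

/-- If `y` is a root of `a` then `(τ y)⁻¹` is a root of the dual of `a`. -/
theorem aeval_dl_inv {K : Type*} [Field K] [Algebra F K] (σ : F →+* F) (τ : K →+* K)
    (hτ : ∀ c : F, τ (algebraMap F K c) = algebraMap F K (σ c)) {a : F[X]} {y : K} (hy0 : y ≠ 0)
    (hy : aeval y a = 0) : aeval (τ y)⁻¹ (dl σ a) = 0 := by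
  have hty : τ y ≠ 0 := by simpa using hy0
  let _ : Invertible (τ y) := invertibleOfNonzero hty
  have h1 := eval₂_reverse_mul_pow (algebraMap F K) (τ y) (a.map σ)
  rw [invOf_eq_inv] at h1
  have h2 : eval₂ (algebraMap F K) (τ y) (a.map σ) = 0 := by
    rw [eval₂_map]
    have h3 : (algebraMap F K).comp σ = τ.comp (algebraMap F K) := by
      ext c; simp [hτ]
    rw [h3, ← hom_eval₂, ← aeval_def, hy, map_zero]
  rw [h2] at h1
  rw [aeval_def]
  exact (mul_eq_zero.1 h1).resolve_right (pow_ne_zero _ hty)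

variable [Fintype F]

/-- Roots of `f` in `F[X]/(f)` are the `q^j`-th powers of the given root. -/
theorem exists_pow_of_root {f : F[X]} (hf : Irreducible f) [Fact (Irreducible f)]
    (y : AdjoinRoot f) (hy : aeval y f = 0) :
    ∃ j : ℕ, y = (AdjoinRoot.root f) ^ (Fintype.card F ^ j) := by
  have hfd : FiniteDimensional F (AdjoinRoot f) := (AdjoinRoot.powerBasis hf.ne_zero).finite
  have hfin : Finite (AdjoinRoot f) := Module.finite_of_finite F
  obtain ⟨p, hp⟩ := CharP.exists F
  have hpf : Fact p.Prime := ⟨CharP.char_is_prime F p⟩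
  let φ : AdjoinRoot f →ₐ[F] AdjoinRoot f := AdjoinRoot.liftAlgHom f (Algebra.ofId F _) y hy
  have hφ : Function.Bijective φ := by
    have h1 : Function.Injective φ := φ.toRingHom.injective
    exact Finite.injective_iff_bijective.1 h1
  obtain ⟨j, hj⟩ := FiniteField.exists_forall_apply_eq_pow F p (AdjoinRoot f)
    (AlgEquiv.ofBijective φ hφ)
  refine ⟨j, ?_⟩
  have h2 := hj (AdjoinRoot.root f)
  rw [Nat.card_eq_fintype_card] at h2
  rw [← h2]
  exact (AdjoinRoot.liftAlgHom_root f (Algebra.ofId F _) y hy).symm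

/-- `x ^ (q^m) = x` iff `d ∣ m`. -/
theorem root_pow_card_iff {f : F[X]} (hf : Irreducible f) (m : ℕ) :
    (AdjoinRoot.root f) ^ (Fintype.card F ^ m) = AdjoinRoot.root f ↔ f.natDegree ∣ m := by
  rw [hf.natDegree_dvd_iff_dvd_X_pow_card_pow_sub_X, Nat.card_eq_fintype_card,
    ← AdjoinRoot.mk_eq_mk, map_pow, AdjoinRoot.mk_X]

/-- For all elements. -/
theorem pow_card_pow_eq {f : F[X]} (hf : Irreducible f) [Fact (Irreducible f)] (z : AdjoinRoot f)
    (m : ℕ) : z ^ (Fintype.card F ^ (f.natDegree * m)) = z := by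
  have hfd : FiniteDimensional F (AdjoinRoot f) := (AdjoinRoot.powerBasis hf.ne_zero).finite
  have hfin : Finite (AdjoinRoot f) := Module.finite_of_finite F
  have := Fintype.ofFinite (AdjoinRoot f)
  have hd : finrank F (AdjoinRoot f) = f.natDegree := by
    rw [(AdjoinRoot.powerBasis hf.ne_zero).finrank, AdjoinRoot.powerBasis_dim]
  have hcard : Fintype.card (AdjoinRoot f) = Fintype.card F ^ f.natDegree := by
    rw [Module.card_eq_pow_finrank (K := F), hd]
  rw [pow_mul, ← hcard, FiniteField.pow_card_pow]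

end Cfsg.Agent.H159
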