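import Cfsg.Agent.H159.Dual
import Cfsg.Agent.H159.PslDich

/-!
Sesquilinear forms, isometries and their minimal polynomials: the minimal polynomial is self-dual,
and a coprime factorisation into self-dual factors gives a self-adjoint idempotent.
-/

set_option autoImplicit false

namespace Cfsg.Agent.H159

open Polynomial Module

variable {F V : Type*} [Field F] [AddCommGroup V] [Module F V]

/-- Sesquilinear, nondegenerate. -/
structure Ses (σ : F →+* F) (B : V → V → F) : Prop where
  add_left : ∀ u v w, B (u + v) w = B u w + B v w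
  add_right : ∀ u v w, B u (v + w) = B u v + B u w
  smul_left : ∀ (c : F) u v, B (c • u) v = c * B u v
  smul_right : ∀ (c : F) u v, B u (c • v) = σ c * B u v
  nondeg_left : ∀ u, (∀ v, B u v = 0) → u = 0
  nondeg_right : ∀ v, (∀ u, B u v = 0) → v = 0

theorem Ses.zero_left {σ : F →+* F} {B : V → V → F} (h : Ses σ B) (v : V) : B 0 v = 0 := by
  have := h.smul_left 0 0 v
  simpa using this

theorem Ses.zero_right {σ : F →+* F} {B : V → V → F} (h : Ses σ B) (v : V) : B v 0 = 0 := by
  have := h.smul_right 0 v 0
  simpa using this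

/-- The adjoint of `P(g)` is `P^σ(g⁻¹)`. -/
theorem Ses.adj {σ : F →+* F} (hσ : ∀ c, σ (σ c) = c) {B : V → V → F} (h : Ses σ B) {g g' : End F V}
    (hgg' : g * g' = 1) (hg : ∀ u v, B (g u) (g v) = B u v) (P : F[X]) (u v : V) :
    B (aeval g P u) v = B u (aeval g' (P.map σ) v) := by
  have h1 : ∀ u v, B (g u) v = B u (g' v) := by
    intro u v
    rw [← hg u (g' v)]
    have : g (g' v) = v := by
      have := congrArg (fun f : End F V => f v) hgg'
      simpa using this
    rw [this]
  have h2 : ∀ (n : ℕ) u v, B ((g ^ n) u) v = B u ((g' ^ n) v) := by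
    intro n
    induction n with
    | zero => intro u v; simp
    | succ n ih =>
      intro u v
      rw [pow_succ, pow_succ', Module.End.mul_apply, Module.End.mul_apply, ih, h1]
  induction P using Polynomial.induction_on' generalizing u v with
  | add p q hp hq =>
    rw [map_add, Polynomial.map_add, map_add, LinearMap.add_apply, LinearMap.add_apply, h.add_left,
      h.add_right, hp, hq]
  | monomial n c =>
    rw [aeval_monomial, map_monomial, aeval_monomial, Module.End.mul_apply, Module.End.mul_apply,
      Module.algebraMap_end_apply, Module.algebraMap_end_apply, h.smul_left, h.smul_right, hσ, h2]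

omit [AddCommGroup V] [Module F V] in
/-- Evaluating a reflected polynomial. -/
theorem aeval_reflect {R : Type*} [Ring R] [Algebra F R] {g g' : R} (hgg' : g * g' = 1) (N : ℕ)
    (P : F[X]) (hP : P.natDegree ≤ N) : aeval g (reflect N P) = g ^ N * aeval g' P := by
  have hpow : ∀ k, g ^ k * g' ^ k = 1 := by
    intro k
    induction k with
    | zero => simp
    | succ k ih =>
      rw [pow_succ, pow_succ']
      calc g ^ k * g * (g' * g' ^ k) = g ^ k * (g * g') * g' ^ k := by simp only [mul_assoc]
        _ = 1 := by rw [hgg', mul_one, ih]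
  refine Polynomial.induction_with_natDegree_le (fun P => aeval g (reflect N P) = g ^ N * aeval g' P)
    N ?_ ?_ ?_ P hP
  · simp
  · intro n r _ hn
    rw [reflect_C_mul_X_pow, revAt_le hn]
    simp only [map_mul, aeval_C, map_pow, aeval_X]
    have h1 : g ^ N * g' ^ n = g ^ (N - n) := by
      conv_lhs => rw [show N = (N - n) + n by omega, pow_add, mul_assoc, hpow, mul_one]
    rw [← mul_assoc, ← Algebra.commutes r (g ^ N), mul_assoc, h1]
  · intro f p _ _ hf hp
    rw [reflect_add, map_add, hf, hp, map_add, mul_add]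

omit [AddCommGroup V] [Module F V] in
theorem aeval_dl {R : Type*} [Ring R] [Algebra F R] (σ : F →+* F) {g g' : R} (hgg' : g * g' = 1)
    (a : F[X]) : aeval g (dl σ a) = g ^ a.natDegree * aeval g' (a.map σ) := by
  unfold dl reverse
  rw [aeval_reflect hgg' _ _ le_rfl, natDegree_map]

/-- The minimal polynomial of an isometry is self-dual. -/
theorem Ses.minpoly_selfdual {σ : F →+* F} (hσ : ∀ c, σ (σ c) = c) {B : V → V → F} (h : Ses σ B)
    [FiniteDimensional F V] {g g' : End F V} (hgg' : g * g' = 1)
    (hg : ∀ u v, B (g u) (g v) = B u v) (h0 : (minpoly F g).coeff 0 ≠ 0) :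
    Associated (dl σ (minpoly F g)) (minpoly F g) := by
  have h1 : aeval g' ((minpoly F g).map σ) = 0 := by
    ext v
    apply h.nondeg_right
    intro u
    rw [← h.adj hσ hgg' hg, minpoly.aeval, LinearMap.zero_apply, h.zero_left]
  have h2 : minpoly F g ∣ dl σ (minpoly F g) := by
    apply minpoly.dvd
    rw [aeval_dl σ hgg', h1, mul_zero]
  have hne : minpoly F g ≠ 0 := by intro hh; rw [hh] at h0; exact h0 (coeff_zero 0)
  exact (associated_of_dvd_of_natDegree_le h2 (dl_ne_zero σ hne) (natDegree_dl σ h0).le).symm

/-- A self-dual coprime factorisation gives a self-adjoint idempotent commuting with `g`. -/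
theorem Ses.exists_idempotent {σ : F →+* F} (hσ : ∀ c, σ (σ c) = c) {B : V → V → F} (h : Ses σ B)
    {g g' : End F V} (hgg' : g * g' = 1) (hg'g : g' * g = 1)
    (hg : ∀ u v, B (g u) (g v) = B u v) (hμ0 : (minpoly F g) ≠ 0) {a b : F[X]}
    (hab : minpoly F g = a * b) (hc : IsCoprime a b) (ha : ¬ IsUnit a) (hb : ¬ IsUnit b)
    (hda : Associated (dl σ a) a) (hdb : Associated (dl σ b) b) :
    ∃ e : End F V, e * e = e ∧ e ≠ 0 ∧ e ≠ 1 ∧ e * g = g * e ∧ ∀ u v, B (e u) v = B u (e v) := by
  obtain ⟨u, v, huv⟩ := id hc
  have hprod : aeval g (a * b) = 0 := by rw [← hab, minpoly.aeval]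
  have hg' : ∀ u v, B (g' u) (g' v) = B u v := by
    intro x y
    rw [← hg (g' x) (g' y)]
    have h1 : ∀ v, g (g' v) = v := by
      intro v
      have := congrArg (fun f : End F V => f v) hgg'
      simpa using this
    rw [h1, h1]
  have hadj' : ∀ (P : F[X]) (x y : V), B x (aeval g P y) = B (aeval g' (P.map σ) x) y := by
    intro P x y
    rw [h.adj hσ hg'g hg' (P.map σ) x y]
    have : (P.map σ).map σ = P := by
      ext i; simp [hσ]
    rw [this]
  -- `c(g') z = 0` when `c` is self-dual and `c(g) z = 0`
  have hkill : ∀ c : F[X], Associated (dl σ c) c → ∀ z, aeval g c z = 0 →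
      aeval g' (c.map σ) z = 0 := by
    intro c hcc z hz
    have h1 : aeval g (dl σ c) z = 0 := by
      obtain ⟨d, hd⟩ := hcc.symm.dvd
      rw [hd, mul_comm, map_mul, Module.End.mul_apply, hz, map_zero]
    rw [aeval_dl σ hgg', Module.End.mul_apply] at h1
    have h2 : ∀ k, g' ^ k * g ^ k = 1 := by
      intro k
      induction k with
      | zero => simp
      | succ k ih =>
        rw [pow_succ, pow_succ']
        calc g' ^ k * g' * (g * g ^ k) = g' ^ k * (g' * g) * g ^ k := by simp only [mul_assoc]
          _ = 1 := by rw [hg'g, mul_one, ih]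
    have h3 := congrArg (fun w => (g' ^ c.natDegree) w) h1
    simp only [map_zero] at h3
    rw [← Module.End.mul_apply, h2, Module.End.one_apply] at h3
    exact h3
  -- orthogonality
  have ho1 : ∀ x y, B (aeval g (u * a) x) (aeval g (v * b) y) = 0 := by
    intro x y
    rw [mul_comm v b, map_mul (aeval g) b v, Module.End.mul_apply, hadj', hkill b hdb, h.zero_left]
    rw [← Module.End.mul_apply, ← map_mul, show b * (u * a) = u * (a * b) by ring, map_mul, hprod,
      mul_zero, LinearMap.zero_apply]
  have ho2 : ∀ x y, B (aeval g (v * b) x) (aeval g (u * a) y) = 0 := by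
    intro x y
    rw [mul_comm u a, map_mul (aeval g) a u, Module.End.mul_apply, hadj', hkill a hda, h.zero_left]
    rw [← Module.End.mul_apply, ← map_mul, show a * (v * b) = v * (a * b) by ring, map_mul, hprod,
      mul_zero, LinearMap.zero_apply]
  have hsplit : ∀ x, x = aeval g (u * a) x + aeval g (v * b) x := by
    intro x
    rw [← LinearMap.add_apply, ← map_add, huv, map_one, Module.End.one_apply]
  refine ⟨aeval g (u * a), ?_, ?_, ?_, ?_, ?_⟩
  · have h1 : u * a * (u * a) = u * a - u * v * (a * b) := by
      have : u * a = 1 - v * b := by rw [← huv]; ring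
      calc u * a * (u * a) = u * a * (1 - v * b) := by rw [← this]
        _ = _ := by ring
    rw [← map_mul, h1, map_sub, map_mul (aeval g) (u * v), hprod, mul_zero, sub_zero]
  · intro h
    have h1 := minpoly.dvd F g h
    rw [hab, mul_comm a b] at h1
    have ha0 : a ≠ 0 := by rintro rfl; rw [zero_mul] at hab; exact hμ0 hab
    have h2 : b ∣ u := (mul_dvd_mul_iff_right ha0).1 h1
    apply hb
    rw [isUnit_iff_dvd_one, ← huv]
    exact dvd_add (h2.mul_right a) (Dvd.intro_left v rfl)
  · intro h
    have h3 : aeval g (v * b) = 0 := by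
      have : v * b = 1 - u * a := by rw [← huv]; ring
      rw [this, map_sub, h, map_one, sub_self]
    have h1 := minpoly.dvd F g h3
    rw [hab] at h1
    have hb0 : b ≠ 0 := by rintro rfl; rw [mul_zero] at hab; exact hμ0 hab
    have h2 : a ∣ v := (mul_dvd_mul_iff_right hb0).1 h1
    apply ha
    rw [isUnit_iff_dvd_one, ← huv]
    exact dvd_add (Dvd.intro_left u rfl) (h2.mul_right b)
  · have h4 := congrArg (aeval g) (mul_comm (u * a) X)
    rwa [map_mul (aeval g) (u * a) X, map_mul (aeval g) X (u * a), aeval_X] at h4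
  · intro x y
    conv_lhs => rw [hsplit y, h.add_right, ho1, add_zero]
    conv_rhs => rw [hsplit x, h.add_left, ho2, add_zero]

end Cfsg.Agent.H159
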