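import Cfsg.Agent.H159.SpOrd

/-!
Orders of elements of `PSp_{2n}(q)`, `q` odd: existence, continued.
-/

set_option autoImplicit false

namespace Cfsg.Agent.H159

open Module LinearMap

variable {F : Type*} [Field F] [Fintype F]

/-- The two kinds of cyclic tori together. -/
theorem exists_torus (p m s : ℕ) [Fact p.Prime] [CharP F p] (h2 : (2 : F) ≠ 0) (hm : 1 ≤ m)
    (hs : s ∣ Fintype.card F ^ m - 1 ∨ s ∣ Fintype.card F ^ m + 1) :
    ∃ (V : Type) (_ : AddCommGroup V) (_ : Module F V) (B : LinearMap.BilinForm F V) (g : End F V),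
      SpSpace F m V B g ∧ ∀ k, g ^ k = 1 ↔ s ∣ k := by
  rcases hs with hs | hs
  · exact exists_split_torus p m s hm hs
  · exact exists_nonsplit_torus p m s h2 hm hs

theorem coprime_of_dvd (p m s : ℕ) [Fact p.Prime] [CharP F p] (hm : 1 ≤ m)
    (hs : s ∣ Fintype.card F ^ m - 1 ∨ s ∣ Fintype.card F ^ m + 1) : Nat.Coprime s p := by
  have hp : p.Prime := Fact.out
  obtain ⟨k, hk, hcard⟩ := FiniteField.card F p
  have h1 : p ∣ Fintype.card F ^ m := by
    rw [hcard]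
    exact dvd_pow (dvd_pow_self p k.pos.ne') (by omega)
  have h3 : 0 < Fintype.card F ^ m := pow_pos Fintype.card_pos _
  rw [Nat.coprime_comm, Nat.Prime.coprime_iff_not_dvd hp]
  intro h
  have h4 : p ∣ 1 := by
    rcases hs with hs | hs
    · have := (Nat.dvd_sub h1 (h.trans hs))
      rwa [Nat.sub_sub_self h3] at this
    · exact (Nat.dvd_add_right h1).1 (h.trans hs)
  exact hp.one_lt.ne' (Nat.dvd_one.1 h4)

/-- Orders `(q^n ± 1)/2`. -/
theorem exists_half (p n s : ℕ) [Fact p.Prime] [CharP F p] (h2 : (2 : F) ≠ 0) (hn : 1 ≤ n)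
    (hs : 2 * s ∣ Fintype.card F ^ n - 1 ∨ 2 * s ∣ Fintype.card F ^ n + 1) :
    ∃ x : Cfsg.PSp n F, s ∣ orderOf x := by
  obtain ⟨V, _, _, B, g, hg, hk⟩ := exists_torus p n (2 * s) h2 hn hs
  obtain ⟨x, hx⟩ := hg.exists_psp
  refine ⟨x, ?_⟩
  obtain ⟨c, hc⟩ := (hx _).1 (pow_orderOf_eq_one x)
  have hcc := hg.scalar_sq hn hc
  have h3 : g ^ (2 * orderOf x) = 1 := by
    rw [mul_comm, pow_mul, hc, sq, ← map_mul, hcc, map_one]
  rw [hk] at h3
  exact Nat.dvd_of_mul_dvd_mul_left (by norm_num) h3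

/-- The order of the regular unipotent. -/
theorem exists_unip_psp (p n : ℕ) [Fact p.Prime] [CharP F p] (hodd : Odd (Fintype.card F))
    (hn : 1 ≤ n) : ∃ x : Cfsg.PSp n F, p ^ Nat.clog p (2 * n) ∣ orderOf x := by
  obtain ⟨g, hg, -, hk⟩ := exists_unip_sp (F := F) p n hodd hn
  obtain ⟨x, hx⟩ := hg.exists_psp
  exact ⟨x, hk _ ((hx _).1 (pow_orderOf_eq_one x))⟩

/-- Decomposable elements. -/
theorem exists_decomp (p m₁ m₂ s : ℕ) [Fact p.Prime] [CharP F p] (h2 : (2 : F) ≠ 0)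
    (hodd : Odd (Fintype.card F)) (hm₁ : 1 ≤ m₁) (hm₂ : 1 ≤ m₂) (hs2 : Odd s)
    (hs : s ∣ Fintype.card F ^ m₁ - 1 ∨ s ∣ Fintype.card F ^ m₁ + 1) :
    ∃ x : Cfsg.PSp (m₁ + m₂) F, 2 * (s * p ^ Nat.clog p (2 * m₂)) ∣ orderOf x := by
  have hp : p.Prime := Fact.out
  obtain ⟨V, _, _, B, g, hg, hk⟩ := exists_torus p m₁ s h2 hm₁ hs
  obtain ⟨g', hg', hg'1, hk'⟩ := exists_unip_sp (F := F) p m₂ hodd hm₂
  have hneg : SpSpace F m₁ V B (-g) := ⟨hg.fin, hg.alt, hg.nondeg, hg.dim, hg.isom.neg⟩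
  obtain ⟨x, hx⟩ := (hneg.prod hg').exists_psp
  refine ⟨x, ?_⟩
  obtain ⟨c, hc⟩ := (hx _).1 (pow_orderOf_eq_one x)
  rw [prodMap_pow'] at hc
  have hfd := hg.fin
  have hnt : Nontrivial V := by
    rw [← Module.finrank_pos_iff (R := F), hg.dim]; omega
  have hnt' : Nontrivial (Fin m₂ ⊕ Fin m₂ → F) := by
    rw [← Module.finrank_pos_iff (R := F), hg'.dim]; omega
  have hc1 : (-g) ^ orderOf x = algebraMap F _ c := by
    ext v
    have := congrArg (fun f => (f (v, 0)).1) hc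
    simpa using this
  have hc2 : g' ^ orderOf x = algebraMap F _ c := by
    refine LinearMap.ext fun v => ?_
    have := congrArg (fun f => (f (0, v)).2) hc
    simpa using this
  have h3 : p ^ Nat.clog p (2 * m₂) ∣ orderOf x := hk' _ ⟨c, hc2⟩
  have hc3 : c = 1 := by
    obtain ⟨j, hj⟩ := h3
    rw [hj, pow_mul, hg'1, one_pow] at hc2
    exact ((algebraMap F (End F (Fin m₂ ⊕ Fin m₂ → F))).injective (by rw [map_one, hc2])).symm
  rw [hc3, map_one] at hc1
  have h4 : s ∣ orderOf x := by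
    have h5 : g ^ (orderOf x * 2) = 1 := by
      rw [mul_comm, ← (even_two_mul (orderOf x)).neg_pow g, mul_comm, pow_mul, hc1, one_pow]
    rw [hk] at h5
    exact (hs2.coprime_two_right).dvd_of_dvd_mul_right h5
  have h5 : 2 ∣ orderOf x := by
    by_contra hcon
    have hox : Odd (orderOf x) := Nat.not_even_iff_odd.1 (fun he => hcon he.two_dvd)
    rw [hox.neg_pow, (hk _).2 h4] at hc1
    have h6 : (2 : F) = 0 := by
      have h7 : algebraMap F (End F V) 2 = 0 := by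
        rw [map_ofNat]
        have h8 : (1 : End F V) + 1 = 0 := by
          nth_rewrite 1 [← hc1]; exact neg_add_cancel _
        rw [← h8]; norm_num
      exact (algebraMap F (End F V)).injective (by rw [h7, map_zero])
    exact h2 h6
  have hcop : Nat.Coprime s (p ^ Nat.clog p (2 * m₂)) := (coprime_of_dvd p m₁ s hm₁ hs).pow_right _
  have hp2 : Nat.Coprime 2 p := by
    rw [Nat.coprime_primes Nat.prime_two hp]
    rintro rfl
    apply h2
    have := CharP.cast_eq_zero F 2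
    simpa using this
  have hcop2 : Nat.Coprime 2 (s * p ^ Nat.clog p (2 * m₂)) :=
    Nat.Coprime.mul_right hs2.coprime_two_left (hp2.pow_right _)
  exact hcop2.mul_dvd_of_dvd_of_dvd h5 (hcop.mul_dvd_of_dvd_of_dvd h4 h3)

end Cfsg.Agent.H159
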