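import Cfsg.Agent.H159.SpEnd
import Cfsg.Agent.H159.PslDich
import Cfsg.Agent.S2591

/-!
Constructions of elements of symplectic groups: cyclic tori of orders `q^m - 1`, `q^m + 1`,
regular unipotents, and direct sums.
-/

set_option autoImplicit false

namespace Cfsg.Agent.H159

open Module LinearMap

/-- A non-degenerate alternating space of dimension `2m` with an isometry. -/
structure SpSpace (F : Type*) [Field F] (m : ℕ) (V : Type*) [AddCommGroup V] [Module F V]
    (B : LinearMap.BilinForm F V) (g : End F V) : Prop where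
  fin : FiniteDimensional F V
  alt : B.IsAlt
  nondeg : B.Nondegenerate
  dim : finrank F V = 2 * m
  isom : Isom B g

theorem Isom.pow {F V : Type*} [Field F] [AddCommGroup V] [Module F V]
    {B : LinearMap.BilinForm F V} {g : End F V} (hg : Isom B g) (k : ℕ) : Isom B (g ^ k) := by
  induction k with
  | zero => intro u v; simp
  | succ k ih => intro u v; rw [pow_succ, Module.End.mul_apply, Module.End.mul_apply, ih, hg]

theorem Isom.neg {F V : Type*} [Field F] [AddCommGroup V] [Module F V]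
    {B : LinearMap.BilinForm F V} {g : End F V} (hg : Isom B g) : Isom B (-g) := by
  intro u v; simp [hg u v]

/-- A scalar isometry has `c * c = 1`. -/
theorem SpSpace.scalar_sq {F : Type*} [Field F] {m : ℕ} {V : Type*} [AddCommGroup V] [Module F V]
    {B : LinearMap.BilinForm F V} {g : End F V} (h : SpSpace F m V B g) (hm : 1 ≤ m) {k : ℕ} {c : F}
    (hc : g ^ k = algebraMap F _ c) : c * c = 1 := by
  have := h.fin
  have hnt : Nontrivial V := by
    rw [← Module.finrank_pos_iff (R := F), h.dim]; omega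
  obtain ⟨u, hu⟩ := exists_ne (0 : V)
  obtain ⟨v, hv⟩ : ∃ v, B u v ≠ 0 := by
    by_contra hcon
    push Not at hcon
    exact hu (h.nondeg.1 u hcon)
  have h1 := h.isom.pow k u v
  rw [hc] at h1
  simp only [Module.algebraMap_end_apply, map_smul, LinearMap.smul_apply, smul_eq_mul] at h1
  have h2 : (c * c - 1) * B u v = 0 := by
    rw [sub_mul, one_mul, mul_assoc, h1, sub_self]
  exact sub_eq_zero.1 ((mul_eq_zero.1 h2).resolve_right hv)

/-- Direct sums. -/
theorem SpSpace.prod {F : Type*} [Field F] {m₁ m₂ : ℕ} {V₁ V₂ : Type*} [AddCommGroup V₁]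
    [Module F V₁] [AddCommGroup V₂] [Module F V₂] {B₁ : LinearMap.BilinForm F V₁}
    {B₂ : LinearMap.BilinForm F V₂} {g₁ : End F V₁} {g₂ : End F V₂}
    (h₁ : SpSpace F m₁ V₁ B₁ g₁) (h₂ : SpSpace F m₂ V₂ B₂ g₂) :
    SpSpace F (m₁ + m₂) (V₁ × V₂)
      (B₁.comp (LinearMap.fst F V₁ V₂) (LinearMap.fst F V₁ V₂) +
        B₂.comp (LinearMap.snd F V₁ V₂) (LinearMap.snd F V₁ V₂)) (g₁.prodMap g₂) := by
  have := h₁.fin
  have := h₂.fin
  refine ⟨inferInstance, ?_, ?_, ?_, ?_⟩
  · intro u
    simp [h₁.alt u.1, h₂.alt u.2]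
  · constructor
    · intro u hu
      refine Prod.ext (h₁.nondeg.1 _ fun v => ?_) (h₂.nondeg.1 _ fun v => ?_)
      · simpa using hu (v, 0)
      · simpa using hu (0, v)
    · intro u hu
      refine Prod.ext (h₁.nondeg.2 _ fun v => ?_) (h₂.nondeg.2 _ fun v => ?_)
      · simpa using hu (v, 0)
      · simpa using hu (0, v)
  · rw [Module.finrank_prod, h₁.dim, h₂.dim]; ring
  · intro u v
    simp [h₁.isom u.1 v.1, h₂.isom u.2 v.2]

variable {F : Type*} [Field F] [Fintype F]

/-- The split torus. -/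
theorem exists_split_torus (p m s : ℕ) [Fact p.Prime] [CharP F p] (hm : 1 ≤ m)
    (hs : s ∣ Fintype.card F ^ m - 1) :
    ∃ (V : Type) (_ : AddCommGroup V) (_ : Module F V) (B : LinearMap.BilinForm F V) (g : End F V),
      SpSpace F m V B g ∧ ∀ k, g ^ k = 1 ↔ s ∣ k := by
  obtain ⟨K, _, _, _, _, a, hK, ha, hcard⟩ := exists_field_gen F p m (by omega)
  have hq : 2 ≤ Fintype.card F := Fintype.one_lt_card
  have hpos : 0 < Fintype.card F ^ m - 1 := by
    have : Fintype.card F ≤ Fintype.card F ^ m := Nat.le_self_pow (by omega) _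
    omega
  obtain ⟨θ, hθ⟩ : ∃ θ : Kˣ, orderOf θ = s := by
    obtain ⟨t, ht⟩ := hs
    have ht0 : t ≠ 0 := by rintro rfl; simp at ht; omega
    refine ⟨a ^ t, ?_⟩
    rw [orderOf_pow' a ht0, ha, ht, Nat.gcd_eq_right (Dvd.intro_left s rfl),
      Nat.mul_div_cancel _ (Nat.pos_of_ne_zero ht0)]
  have hsep : Algebra.IsSeparable F K := inferInstance
  have htr := traceForm_nondegenerate F K
  refine ⟨K × K, inferInstance, inferInstance,
    (Algebra.traceForm F K).comp (LinearMap.fst F K K) (LinearMap.snd F K K) -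
      (Algebra.traceForm F K).comp (LinearMap.snd F K K) (LinearMap.fst F K K),
    LinearMap.prodMap (Algebra.lmul F K (θ : K)) (Algebra.lmul F K ((θ⁻¹ : Kˣ) : K)),
    ⟨inferInstance, ?_, ?_, ?_, ?_⟩, ?_⟩
  · intro u
    simp [Algebra.traceForm_apply, mul_comm]
  · constructor
    · intro u hu
      refine Prod.ext (htr.1 _ fun v => ?_) (htr.1 _ fun v => ?_)
      · simpa using hu (0, v)
      · simpa using hu (v, 0)
    · intro u hu
      refine Prod.ext (htr.2 _ fun v => ?_) (htr.2 _ fun v => ?_)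
      · simpa using hu (0, v)
      · simpa using hu (v, 0)
  · rw [Module.finrank_prod, hK]; ring
  · intro u v
    have h1 : ∀ x y : K, (θ : K) * x * (((θ⁻¹ : Kˣ) : K) * y) = x * y := by
      intro x y
      have : (θ : K) * ((θ⁻¹ : Kˣ) : K) = 1 := Units.mul_inv θ
      calc (θ : K) * x * (((θ⁻¹ : Kˣ) : K) * y) = ((θ : K) * ((θ⁻¹ : Kˣ) : K)) * (x * y) := by ring
        _ = x * y := by rw [this, one_mul]
    have h2 : ∀ x y : K, ((θ⁻¹ : Kˣ) : K) * x * ((θ : K) * y) = x * y := by
      intro x y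
      rw [mul_comm, h1, mul_comm]
    simp only [LinearMap.sub_apply, LinearMap.BilinForm.comp_apply, LinearMap.fst_apply,
      LinearMap.snd_apply, Algebra.traceForm_apply, LinearMap.prodMap_apply, Algebra.coe_lmul_eq_mul,
      LinearMap.mul_apply', h1, h2]
  · intro k
    rw [prodMap_pow', ← hθ]
    constructor
    · intro h
      rw [← map_pow] at h
      have h1 := congrArg (fun f => (f (1, 0)).1) h
      simp only [LinearMap.prodMap_apply, Algebra.coe_lmul_eq_mul, LinearMap.mul_apply', mul_one,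
        Module.End.one_apply] at h1
      rw [orderOf_dvd_iff_pow_eq_one]
      exact Units.ext (by simpa using h1)
    · intro h
      rw [orderOf_dvd_iff_pow_eq_one] at h
      have h1 : (θ : K) ^ k = 1 := by rw [← Units.val_pow_eq_pow_val, h, Units.val_one]
      have h2 : ((θ⁻¹ : Kˣ) : K) ^ k = 1 := by
        rw [← Units.val_pow_eq_pow_val, inv_pow, h, inv_one, Units.val_one]
      rw [← map_pow, ← map_pow, h1, h2, map_one]
      ext <;> simp

/-- The non-split torus. -/
theorem exists_nonsplit_torus (p m s : ℕ) [Fact p.Prime] [CharP F p] (h2 : (2 : F) ≠ 0) (hm : 1 ≤ m)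
    (hs : s ∣ Fintype.card F ^ m + 1) :
    ∃ (V : Type) (_ : AddCommGroup V) (_ : Module F V) (B : LinearMap.BilinForm F V) (g : End F V),
      SpSpace F m V B g ∧ ∀ k, g ^ k = 1 ↔ s ∣ k := by
  obtain ⟨K, _, _, _, _, a, hK, ha, hcard⟩ := exists_field_gen F p (2 * m) (by omega)
  have hq : 2 ≤ Fintype.card F := Fintype.one_lt_card
  set Q := Fintype.card F ^ m with hQ
  have hQ2 : 2 ≤ Q := le_trans hq (Nat.le_self_pow (by omega) _)
  have hQQ : Fintype.card F ^ (2 * m) - 1 = (Q + 1) * (Q - 1) := by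
    rw [mul_comm 2 m, pow_mul, ← hQ, ← Nat.sq_sub_sq, one_pow]
  rw [hQQ] at ha
  have hpos : 0 < (Q + 1) * (Q - 1) := Nat.mul_pos (by omega) (by omega)
  obtain ⟨θ, hθ⟩ : ∃ θ : Kˣ, orderOf θ = s := by
    obtain ⟨t, ht⟩ := hs
    have ht0 : t * (Q - 1) ≠ 0 := by
      rintro h0
      rw [ht, mul_assoc, h0, mul_zero] at hpos
      exact lt_irrefl _ hpos
    refine ⟨a ^ (t * (Q - 1)), ?_⟩
    rw [orderOf_pow' a ht0, ha, ht, mul_assoc, Nat.gcd_eq_right (Dvd.intro_left s rfl),
      Nat.mul_div_cancel _ (Nat.pos_of_ne_zero ht0)]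
  let τ : K ≃ₐ[F] K := (FiniteField.frobeniusAlgEquivOfAlgebraic F K) ^ m
  have hτ : ∀ z, τ z = z ^ Q := by
    intro z
    simp only [τ, AlgEquiv.coe_pow, FiniteField.coe_frobeniusAlgEquivOfAlgebraic, pow_iterate, hQ]
  have hfK := Fintype.ofFinite K
  have hττ : ∀ z, τ (τ z) = z := by
    intro z
    have h1 : Fintype.card K = Q * Q := by
      rw [Fintype.card_eq_nat_card, hcard, mul_comm 2 m, pow_mul, ← hQ, sq]
    rw [hτ, hτ, ← pow_mul, ← h1, FiniteField.pow_card]
  obtain ⟨z, hz⟩ : ∃ z, τ z ≠ z := by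
    refine ⟨(a : K), fun h => ?_⟩
    rw [hτ] at h
    have h1 : a ^ (Q - 1) = 1 := by
      apply Units.ext
      rw [Units.val_pow_eq_pow_val, Units.val_one]
      apply mul_right_cancel₀ (a.ne_zero)
      rw [← pow_succ, one_mul, show Q - 1 + 1 = Q by omega, h]
    have h3 := orderOf_dvd_of_pow_eq_one h1
    rw [ha] at h3
    have h4 := Nat.le_of_dvd (by omega) h3
    have h5 : 2 * (Q - 1) ≤ (Q + 1) * (Q - 1) := Nat.mul_le_mul_right _ (by omega)
    omega
  set ε : K := z - τ z with hε
  have hε0 : ε ≠ 0 := fun h => hz (sub_eq_zero.1 h).symm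
  have hτε : τ ε = - ε := by
    rw [hε, map_sub, hττ]; ring
  have hsep : Algebra.IsSeparable F K := inferInstance
  have htr := traceForm_nondegenerate F K
  have hQθ : ((θ : K)) * τ (θ : K) = 1 := by
    rw [hτ, ← pow_succ', ← Units.val_pow_eq_pow_val]
    rw [← hθ, orderOf_dvd_iff_pow_eq_one] at hs
    rw [hs, Units.val_one]
  refine ⟨K, inferInstance, inferInstance,
    (Algebra.traceForm F K).comp (Algebra.lmul F K ε) (τ : K →ₗ[F] K),
    Algebra.lmul F K (θ : K), ⟨inferInstance, ?_, ?_, hK, ?_⟩, ?_⟩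
  · intro u
    have h1 : Algebra.trace F K (ε * u * τ u) = - Algebra.trace F K (ε * u * τ u) := by
      conv_lhs => rw [← Algebra.trace_eq_of_algEquiv τ]
      rw [map_mul τ, map_mul τ, hτε, hττ, ← map_neg]
      congr 1
      ring
    have h3 : (2 : F) * Algebra.trace F K (ε * u * τ u) = 0 := by
      rw [two_mul]
      nth_rewrite 1 [h1]
      exact neg_add_cancel _
    exact (mul_eq_zero.1 h3).resolve_left h2
  · constructor
    · intro u hu
      have h1 : ε * u = 0 := by
        apply htr.1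
        intro v
        have := hu (τ v)
        simpa [hττ] using this
      exact (mul_eq_zero.1 h1).resolve_left hε0
    · intro v hv
      have h1 : τ v = 0 := by
        apply htr.2
        intro u
        have := hv (ε⁻¹ * u)
        simpa [← mul_assoc, mul_inv_cancel₀ hε0] using this
      simpa using h1
  · intro u v
    show Algebra.trace F K (ε * ((θ : K) * u) * τ ((θ : K) * v)) = Algebra.trace F K (ε * u * τ v)
    rw [map_mul τ]
    congr 1
    calc ε * ((θ : K) * u) * (τ (θ : K) * τ v) = (θ : K) * τ (θ : K) * (ε * u * τ v) := by ring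
      _ = ε * u * τ v := by rw [hQθ, one_mul]
  · intro k
    rw [← map_pow, ← hθ, orderOf_dvd_iff_pow_eq_one]
    constructor
    · intro h
      have h1 := congrArg (fun f => f 1) h
      simp only [Algebra.coe_lmul_eq_mul, LinearMap.mul_apply', mul_one,
        Module.End.one_apply] at h1
      exact Units.ext (by simpa using h1)
    · intro h
      rw [← Units.val_pow_eq_pow_val, h, Units.val_one, map_one]

end Cfsg.Agent.H159
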