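import Cfsg.Agent.H159.SpBuild
import Cfsg.Agent.H159.Ses
import Cfsg.Agent.H159.FieldRoot

/-!
Elements of odd order of `PSp_{2n}(q)`, `q` odd: either twice the order divides the order of an
element, or the order divides `(q^n-1)/2`, `(q^n+1)/2` or `p^e`.
-/

set_option autoImplicit false

namespace Cfsg.Agent.H159

open Module LinearMap Polynomial

variable {F : Type*} [Field F]

theorem dl_X_pow_sub_C (σ : F →+* F) (s : ℕ) (c : F) :
    dl σ (X ^ s - C c) = 1 - C (σ c) * X ^ s := by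
  unfold dl reverse
  rw [Polynomial.map_sub, Polynomial.map_pow, map_X, map_C, natDegree_X_pow_sub_C, reflect_sub,
    reflect_monomial, reflect_C, revAt_le le_rfl, Nat.sub_self, pow_zero]

/-- If `f ∣ X^s - 1` then also its dual divides it. -/
theorem dl_dvd_X_pow_sub_one (σ : F →+* F) {f : F[X]} {s : ℕ} (h : f ∣ X ^ s - 1) :
    dl σ f ∣ X ^ s - 1 := by
  have h1 := dl_dvd σ h
  rw [← C_1, dl_X_pow_sub_C σ s, map_one, C_1, one_mul, ← neg_sub, dvd_neg] at h1
  exact h1

theorem SpSpace.ses {n : ℕ} {V : Type*} [AddCommGroup V] [Module F V]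
    {B : LinearMap.BilinForm F V} {g : End F V} (h : SpSpace F n V B g) :
    Ses (RingHom.id F) (fun u v => B u v) where
  add_left u v w := by simp
  add_right u v w := by simp
  smul_left c u v := by simp
  smul_right c u v := by simp
  nondeg_left := h.nondeg.1
  nondeg_right := h.nondeg.2

theorem arith1 {d k n : ℕ} (hd : 1 ≤ d) (hdn : d < n) (h : d * k ≤ n) : k ≤ 2 * (n - d) := by
  rcases Nat.lt_or_ge k 2 with hk | hk
  · omega
  · obtain ⟨j, rfl⟩ : ∃ j, k = j + 2 := ⟨k - 2, by omega⟩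
    have h1 : j + 1 ≤ d * (j + 1) := Nat.le_mul_of_pos_left _ hd
    have h2 : d * (j + 2) = d * (j + 1) + d := by ring
    omega

variable [Fintype F]

/-- The order of the root of a self-dual irreducible polynomial. -/
theorem root_selfdual {f : F[X]} (hf : Irreducible f)
    (hff : Associated (dl (RingHom.id F) f) f) {o : ℕ} (ho : Odd o)
    (hfo : f ∣ X ^ o - 1) (hf1 : ¬ f ∣ X - 1) :
    ∃ d, 1 ≤ d ∧ f.natDegree = 2 * d ∧ f ∣ X ^ (Fintype.card F ^ d + 1) - 1 := by
  have hfact : Fact (Irreducible f) := ⟨hf⟩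
  set x := AdjoinRoot.root f with hx
  have hfx : aeval x f = 0 := by rw [AdjoinRoot.aeval_eq, AdjoinRoot.mk_self]
  have hxo : x ^ o = 1 := by
    rw [hx, ← AdjoinRoot.mk_X, ← map_pow, ← map_one (AdjoinRoot.mk f), AdjoinRoot.mk_eq_mk]
    exact hfo
  have hx0 : x ≠ 0 := by
    rintro h
    rw [h, zero_pow (by rintro rfl; simp at ho)] at hxo
    exact zero_ne_one hxo
  have h1 : aeval x⁻¹ (dl (RingHom.id F) f) = 0 :=
    aeval_dl_inv (K := AdjoinRoot f) (RingHom.id F) (RingHom.id _) (fun c => rfl) hx0 hfx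
  have h2 : aeval x⁻¹ f = 0 := aeval_eq_zero_of_dvd_aeval_eq_zero hff.dvd h1
  obtain ⟨j, hj⟩ := exists_pow_of_root hf x⁻¹ h2
  rw [← hx] at hj
  have h3 : x ^ (Fintype.card F ^ (2 * j)) = x := by
    rw [two_mul, pow_add, pow_mul, ← hj, inv_pow, ← hj, inv_inv]
  have h4 : f.natDegree ∣ 2 * j := (root_pow_card_iff hf _).1 h3
  have h5 : ¬ f.natDegree ∣ j := by
    intro h
    have h6 := (root_pow_card_iff hf _).2 h
    rw [← hx, ← hj] at h6
    have h7 : x ^ 2 = 1 := by
      rw [sq]; nth_rewrite 1 [← h6]; exact inv_mul_cancel₀ hx0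
    have h8 : x = 1 := by
      obtain ⟨k, hk⟩ := ho
      rw [hk, pow_succ, pow_mul, h7, one_pow, one_mul] at hxo
      exact hxo
    apply hf1
    rw [← AdjoinRoot.mk_eq_mk, AdjoinRoot.mk_X, map_one]
    exact h8
  -- the degree is even
  have h6 : 2 ∣ f.natDegree := by
    by_contra hcon
    have h7 : Nat.Coprime f.natDegree 2 := by
      rw [Nat.coprime_comm, Nat.Prime.coprime_iff_not_dvd Nat.prime_two]; exact hcon
    exact h5 (h7.dvd_of_dvd_mul_left h4)
  obtain ⟨d, hd⟩ := h6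
  have hdpos : 1 ≤ d := by
    have := hf.natDegree_pos
    omega
  refine ⟨d, hdpos, hd, ?_⟩
  obtain ⟨l, hl⟩ := h4
  have hl2 : j = d * l := by
    rw [hd, mul_assoc] at hl
    exact Nat.eq_of_mul_eq_mul_left (by norm_num) hl
  have hlodd : Odd l := by
    rw [← Nat.not_even_iff_odd]
    rintro ⟨i, hi⟩
    apply h5
    rw [hd, hl2, hi]
    exact ⟨i, by ring⟩
  obtain ⟨i, hi⟩ := hlodd
  have h7 : x ^ (Fintype.card F ^ j) = x ^ (Fintype.card F ^ d) := by
    rw [hl2, hi, show d * (2 * i + 1) = f.natDegree * i + d by rw [hd]; ring, pow_add, pow_mul,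
      pow_card_pow_eq hf]
  rw [← AdjoinRoot.mk_eq_mk, map_pow, AdjoinRoot.mk_X, map_one, ← hx, pow_succ, ← h7, ← hj,
    inv_mul_cancel₀ hx0]

omit [Fintype F] in
theorem dvd_X_pow_of_factor {f : F[X]} {p : ℕ} [Fact p.Prime] [CharP F p]
    {k s : ℕ} (hfs : f ∣ X ^ s - 1) : f ^ k ∣ X ^ (s * p ^ Nat.clog p k) - 1 := by
  have hp : p.Prime := Fact.out
  have h1 : (X ^ s - 1 : F[X]) ^ p ^ Nat.clog p k = X ^ (s * p ^ Nat.clog p k) - 1 := by
    rw [sub_pow_char_pow, one_pow, ← pow_mul]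
  rw [← h1]
  exact (pow_dvd_pow f (Nat.le_pow_clog hp.one_lt k)).trans (pow_dvd_pow_of_dvd hfs _)

theorem exists_decomp' (p m₁ m₂ n s : ℕ) [Fact p.Prime] [CharP F p] (hmn : m₁ + m₂ = n)
    (h2 : (2 : F) ≠ 0)
    (hodd : Odd (Fintype.card F)) (hm₁ : 1 ≤ m₁) (hm₂ : 1 ≤ m₂) (hs2 : Odd s)
    (hs : s ∣ Fintype.card F ^ m₁ - 1 ∨ s ∣ Fintype.card F ^ m₁ + 1) :
    ∃ x : Cfsg.PSp n F, 2 * (s * p ^ Nat.clog p (2 * m₂)) ∣ orderOf x := by
  subst hmn
  exact exists_decomp p m₁ m₂ s h2 hodd hm₁ hm₂ hs2 hs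

omit [Fintype F] in
theorem gcd_dvd_of {f : F[X]} {m n : ℕ} (hm : f ∣ X ^ m - 1) (hn : f ∣ X ^ n - 1) :
    f ∣ X ^ (Nat.gcd m n) - 1 := by
  rw [← AdjoinRoot.mk_eq_mk, map_pow, map_one] at hm hn ⊢
  exact pow_gcd_eq_one.2 ⟨hm, hn⟩

omit [Fintype F] in
theorem scPow_neg {R : Type*} [Ring R] [Algebra F R] (g : R) (m : ℕ) :
    ScPow F (-g) m ↔ ScPow F g m := by
  have key : ∀ a : R, ScPow F a m → ScPow F (-a) m := by
    rintro a ⟨d, hd⟩
    exact ⟨(-1) ^ m * d, by rw [neg_pow, hd, map_mul, map_pow, map_neg, map_one]⟩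
  constructor
  · intro h
    have := key _ h
    rwa [neg_neg] at this
  · exact key g

theorem neg_pow_odd {R : Type*} [Ring R] (g : R) {m : ℕ} (hm : Odd m) (h : g ^ m = -1) :
    (-g) ^ m = 1 := by
  rw [hm.neg_pow, h, neg_neg]

/-- **The dichotomy for `PSp_{2n}(q)`, `q` odd.** -/
theorem sp_dich {n p : ℕ} [Fact p.Prime] [CharP F p] (hoddF : Odd (Fintype.card F)) (hn : 1 ≤ n)
    (x : Cfsg.PSp n F) (hodd : Odd (orderOf x)) :
    (∃ y : Cfsg.PSp n F, 2 * orderOf x ∣ orderOf y) ∨ 2 * orderOf x ∣ Fintype.card F ^ n - 1 ∨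
      2 * orderOf x ∣ Fintype.card F ^ n + 1 ∨ orderOf x ∣ p ^ Nat.clog p (2 * n) := by
  have hp : p.Prime := Fact.out
  have h2 : (2 : F) ≠ 0 := by
    intro h
    have h3 : p ∣ 2 := (CharP.cast_eq_zero_iff F p 2).1 (by exact_mod_cast h)
    have h4 : p = 2 := (Nat.prime_dvd_prime_iff_eq hp Nat.prime_two).1 h3
    subst h4
    obtain ⟨k, -, hk⟩ := FiniteField.card F 2
    rw [hk] at hoddF
    exact absurd hoddF (Nat.not_odd_iff_even.2 ((Nat.even_pow.2 ⟨even_two, k.pos.ne'⟩)))
  -- choose the lift of odd order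
  obtain ⟨g, hspace, hx, hgo⟩ : ∃ g : End F (Fin n ⊕ Fin n → F),
      SpSpace F n (Fin n ⊕ Fin n → F) (stdSp F n) g ∧ (∀ m, x ^ m = 1 ↔ ScPow F g m) ∧
      g ^ orderOf x = 1 := by
    obtain ⟨g₀, hg₀, hx₀⟩ := exists_end_of_psp x
    have hsp : SpSpace F n (Fin n ⊕ Fin n → F) (stdSp F n) g₀ :=
      ⟨inferInstance, stdSp_isAlt F n, stdSp_nondeg F n, by
        rw [finrank_fintype_fun_eq_card]; simp; ring, hg₀⟩
    obtain ⟨c, hc⟩ := (hx₀ _).1 (pow_orderOf_eq_one x)
    have hcc := hsp.scalar_sq hn hc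
    rcases mul_self_eq_one_iff.1 hcc with h | h
    · exact ⟨g₀, hsp, hx₀, by rw [hc, h, map_one]⟩
    · have hc' : g₀ ^ orderOf x = -1 := by rw [hc, h, map_neg, map_one]
      refine ⟨-g₀, ⟨hsp.fin, hsp.alt, hsp.nondeg, hsp.dim, hg₀.neg⟩, fun m => ?_, ?_⟩
      · rw [hx₀ m]
        exact (scPow_neg g₀ m).symm
      · exact neg_pow_odd g₀ hodd hc'
  set o := orderOf x with ho
  have ho0 : 0 < o := hodd.pos
  have hfd := hspace.fin
  have hmuo : minpoly F g ∣ X ^ o - 1 := minpoly.dvd F g (by simp [hgo])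
  have hμne : minpoly F g ≠ 0 := minpoly.ne_zero (Algebra.IsIntegral.isIntegral _)
  have hμmon : (minpoly F g).Monic := minpoly.monic (Algebra.IsIntegral.isIntegral _)
  have hcoeff : ∀ f : F[X], f ∣ X ^ o - 1 → f.coeff 0 ≠ 0 := by
    rintro f ⟨c, hc⟩ h
    have h3 := congrArg (fun f => coeff f 0) hc
    simp only [mul_coeff_zero, h, zero_mul, coeff_sub, coeff_X_pow, coeff_one_zero] at h3
    rw [if_neg (by omega)] at h3
    simp at h3
  have hμ0 := hcoeff _ hmuo
  have hdeg : (minpoly F g).natDegree ≤ 2 * n := by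
    refine le_trans (Polynomial.natDegree_le_of_dvd (LinearMap.minpoly_dvd_charpoly _)
      (LinearMap.charpoly_monic _).ne_zero) ?_
    rw [LinearMap.charpoly_natDegree, hspace.dim]
  have hodiv : ∀ m, g ^ m = 1 → o ∣ m := fun m hm =>
    orderOf_dvd_of_pow_eq_one ((hx m).2 ⟨1, by rw [hm, map_one]⟩)
  have hpow_of_dvd : ∀ m, minpoly F g ∣ X ^ m - 1 → o ∣ m := by
    rintro m ⟨c, hc⟩
    apply hodiv
    have h3 := congrArg (aeval g) hc
    rw [map_mul, minpoly.aeval, zero_mul] at h3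
    simpa [sub_eq_zero] using h3
  -- split off `X - 1`
  have hX1 : Irreducible (X - C (1 : F)) := irreducible_X_sub_C 1
  obtain ⟨k₁, b₁, hb₁, hfb₁⟩ := WfDvdMonoid.max_power_factor hμne hX1
  by_cases hu₁ : IsUnit b₁
  · right; right; right
    apply hpow_of_dvd
    have h3 : minpoly F g ∣ (X - C 1) ^ k₁ := by
      rw [hfb₁]
      exact (associated_mul_unit_left _ _ hu₁).dvd
    have h4 : k₁ ≤ 2 * n := by
      have h5 : (X - C (1 : F)) ^ k₁ ∣ minpoly F g := Dvd.intro _ hfb₁.symm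
      have h6 := natDegree_le_of_dvd h5 hμne
      rw [natDegree_pow, natDegree_X_sub_C, mul_one] at h6
      exact h6.trans hdeg
    refine h3.trans ((pow_dvd_pow _ (h4.trans (Nat.le_pow_clog hp.one_lt _))).trans ?_)
    rw [C_1, sub_pow_char_pow, one_pow]
  obtain ⟨f, hfmon, hf, hfdvd⟩ := Polynomial.exists_monic_irreducible_factor b₁ hu₁
  have hfμ : f ∣ minpoly F g := hfdvd.trans (Dvd.intro_left _ hfb₁.symm)
  have hfne : ¬ f ∣ X - 1 := by
    intro h
    apply hb₁
    have h3 : Associated f (X - C 1) := hf.associated_of_dvd hX1 (by rw [C_1]; exact h)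
    exact h3.symm.dvd.trans hfdvd
  have hfo : f ∣ X ^ o - 1 := hfμ.trans hmuo
  have hf0 := hcoeff f hfo
  have hgunit : ∃ g' : End F (Fin n ⊕ Fin n → F), g * g' = 1 ∧ g' * g = 1 := by
    refine ⟨g ^ (o - 1), ?_, ?_⟩
    · rw [← pow_succ', show o - 1 + 1 = o by omega, hgo]
    · rw [← pow_succ, show o - 1 + 1 = o by omega, hgo]
  obtain ⟨g', hgg', hg'g⟩ := hgunit
  have hself := hspace.ses.minpoly_selfdual (fun _ => rfl) hgg' hspace.isom hμ0
  obtain ⟨a, b, k, hk, hab, hcop, hda, hdb, hcase⟩ :=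
    selfdual_factor (RingHom.id F) (fun _ => rfl) hμ0 hself hf hfμ
  by_cases hbu : IsUnit b
  · -- the order of the root
    have heven : ∀ m, 2 ∣ Fintype.card F ^ m + 1 ∧ 2 ∣ Fintype.card F ^ m - 1 := by
      intro m
      obtain ⟨j, hj⟩ := hoddF.pow (n := m)
      rw [hj]
      exact ⟨⟨j + 1, by ring⟩, ⟨j, by omega⟩⟩
    have hassoc : Associated (minpoly F g) a := by
      rw [hab]; exact associated_mul_unit_left _ _ hbu
    have hdega : a.natDegree ≤ 2 * n := by
      rw [← natDegree_eq_of_degree_eq (degree_eq_degree_of_associated hassoc)]; exact hdeg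
    rcases hcase with ⟨h3, hff⟩ | ⟨h3, hcff⟩
    · -- self-dual
      obtain ⟨d, hd1, hd2, hd3⟩ := root_selfdual hf hff hodd hfo hfne
      have hdk : d * k ≤ n := by
        rw [h3, natDegree_pow, hd2] at hdega
        nlinarith
      -- the gcd of the two exponents
      have hs := gcd_dvd_of hfo hd3
      set s := Nat.gcd o (Fintype.card F ^ d + 1) with hs'
      have hs1 : s ∣ Fintype.card F ^ d + 1 := Nat.gcd_dvd_right _ _
      have hsodd : Odd s := hodd.of_dvd_nat (Nat.gcd_dvd_left _ _)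
      have hos : o ∣ s * p ^ Nat.clog p k := by
        apply hpow_of_dvd
        refine hassoc.dvd.trans ?_
        rw [h3]
        exact dvd_X_pow_of_factor hs
      rcases Nat.lt_or_ge d n with hdn | hdn
      · left
        obtain ⟨y, hy⟩ := exists_decomp' p d (n - d) n s (by omega) h2 hoddF hd1 (by omega) hsodd
          (Or.inr hs1)
        refine ⟨y, dvd_trans (Nat.mul_dvd_mul_left 2 (hos.trans (Nat.mul_dvd_mul_left s ?_))) hy⟩
        exact pow_dvd_pow p (Nat.clog_mono_right p (arith1 hd1 hdn hdk))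
      · right; right; left
        have hk1 : k = 1 := by
          have : n * k ≤ n := le_trans (Nat.mul_le_mul_right k hdn) hdk
          have h7 : k ≤ 1 := by
            by_contra hcon
            nlinarith
          omega
        have hdn' : d = n := by
          rw [hk1] at hdk; omega
        rw [hk1, Nat.clog_one_right, pow_zero, mul_one] at hos
        rw [hdn'] at hs1
        exact (hodd.coprime_two_left).mul_dvd_of_dvd_of_dvd (heven n).1 (hos.trans hs1)
    · -- `f` and its dual are coprime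
      set d := f.natDegree with hd
      have hd1 : 1 ≤ d := hf.natDegree_pos
      have hdk : d * k ≤ n := by
        rw [h3, natDegree_mul (pow_ne_zero _ hf.ne_zero) (pow_ne_zero _ (dl_ne_zero _ hf.ne_zero)),
          natDegree_pow, natDegree_pow, natDegree_dl _ hf0, ← hd] at hdega
        nlinarith
      have hfq : f ∣ X ^ (Fintype.card F ^ d - 1) - 1 := by
        have hfact : Fact (Irreducible f) := ⟨hf⟩
        rw [← AdjoinRoot.mk_eq_mk, map_pow, AdjoinRoot.mk_X, map_one]
        have hfd' : FiniteDimensional F (AdjoinRoot f) := (AdjoinRoot.powerBasis hf.ne_zero).finite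
        have hfin : Finite (AdjoinRoot f) := Module.finite_of_finite F
        have := Fintype.ofFinite (AdjoinRoot f)
        have hdd : finrank F (AdjoinRoot f) = f.natDegree := by
          rw [(AdjoinRoot.powerBasis hf.ne_zero).finrank, AdjoinRoot.powerBasis_dim]
        have hcard : Fintype.card (AdjoinRoot f) = Fintype.card F ^ d := by
          rw [Module.card_eq_pow_finrank (K := F), hdd]
        rw [← hcard]
        apply FiniteField.pow_card_sub_one_eq_one
        intro h0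
        rw [← AdjoinRoot.mk_X, AdjoinRoot.mk_eq_zero] at h0
        obtain ⟨c, hc⟩ := h0
        have h7 := congrArg (fun f => coeff f 0) hc
        simp only [coeff_X_zero, mul_coeff_zero] at h7
        have h8 : c.coeff 0 = 0 := (mul_eq_zero.1 h7.symm).resolve_left hf0
        have h9 : X ∣ c := X_dvd_iff.2 h8
        obtain ⟨c', hc'⟩ := h9
        rw [hc'] at hc
        have h10 : f * c' = 1 := by
          have : X * (f * c') = X * 1 := by
            rw [mul_one]; nth_rewrite 2 [hc]; ring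
          exact mul_left_cancel₀ X_ne_zero this
        exact hf.not_isUnit (IsUnit.of_mul_eq_one _ h10)
      have hs := gcd_dvd_of hfo hfq
      set s := Nat.gcd o (Fintype.card F ^ d - 1) with hs'
      have hs1 : s ∣ Fintype.card F ^ d - 1 := Nat.gcd_dvd_right _ _
      have hsodd : Odd s := hodd.of_dvd_nat (Nat.gcd_dvd_left _ _)
      have hos : o ∣ s * p ^ Nat.clog p k := by
        apply hpow_of_dvd
        refine hassoc.dvd.trans ?_
        rw [h3]
        exact (hcff.pow).mul_dvd (dvd_X_pow_of_factor hs)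
          (dvd_X_pow_of_factor (dl_dvd_X_pow_sub_one _ hs))
      rcases Nat.lt_or_ge d n with hdn | hdn
      · left
        obtain ⟨y, hy⟩ := exists_decomp' p d (n - d) n s (by omega) h2 hoddF hd1 (by omega) hsodd
          (Or.inl hs1)
        refine ⟨y, dvd_trans (Nat.mul_dvd_mul_left 2 (hos.trans (Nat.mul_dvd_mul_left s ?_))) hy⟩
        exact pow_dvd_pow p (Nat.clog_mono_right p (arith1 hd1 hdn hdk))
      · right; left
        have hk1 : k = 1 := by
          have : n * k ≤ n := le_trans (Nat.mul_le_mul_right k hdn) hdk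
          have h7 : k ≤ 1 := by
            by_contra hcon
            nlinarith
          omega
        have hdn' : d = n := by
          rw [hk1] at hdk; omega
        rw [hk1, Nat.clog_one_right, pow_zero, mul_one] at hos
        rw [hdn'] at hs1
        exact (hodd.coprime_two_left).mul_dvd_of_dvd_of_dvd (heven n).2 (hos.trans hs1)
  · -- orthogonally decomposable
    left
    have hau : ¬ IsUnit a := by
      intro h
      rcases hcase with ⟨h3, -⟩ | ⟨h3, -⟩
      · rw [h3] at h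
        exact hf.not_isUnit ((isUnit_pow_iff hk).1 h)
      · rw [h3] at h
        exact hf.not_isUnit ((isUnit_pow_iff hk).1 (isUnit_of_mul_isUnit_left h))
    obtain ⟨e, h1, h3, h4, h5, h6⟩ := hspace.ses.exists_idempotent (fun _ => rfl) hgg' hg'g
      hspace.isom hμne hab hcop hau hbu hda hdb
    exact hspace.exists_mul_two h2 hx hodd h1 h3 h4 h5 h6

end Cfsg.Agent.H159
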