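import Cfsg.Agent.H159.SpCon

/-!
Orders of elements of `PSp_{2n}(q)`, `q` odd: existence.
-/

set_option autoImplicit false

namespace Cfsg.Agent.H159

open Module LinearMap

variable {F : Type*} [Field F]

theorem SpSpace.exists_psp {n : ℕ} {V : Type*} [AddCommGroup V] [Module F V]
    {B : LinearMap.BilinForm F V} {g : End F V} (h : SpSpace F n V B g) :
    ∃ x : Cfsg.PSp n F, ∀ m, x ^ m = 1 ↔ ScPow F g m := by
  have := h.fin
  exact exists_psp_of_end B h.alt h.nondeg h.dim g h.isom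

/-- **Doubling.** An isometry of odd order modulo scalars commuting with a proper self-adjoint
idempotent gives an element of twice the order. -/
theorem SpSpace.exists_mul_two (h2 : (2 : F) ≠ 0) {n : ℕ} {V : Type*} [AddCommGroup V] [Module F V]
    {B : LinearMap.BilinForm F V} {g e : End F V} (h : SpSpace F n V B g)
    {x : Cfsg.PSp n F} (hx : ∀ m, x ^ m = 1 ↔ ScPow F g m) (hodd : Odd (orderOf x))
    (hee : e * e = e) (he0 : e ≠ 0) (he1 : e ≠ 1) (heg : e * g = g * e)
    (hadj : ∀ u v, B (e u) v = B u (e v)) :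
    ∃ y : Cfsg.PSp n F, 2 * orderOf x ∣ orderOf y := by
  have hfd := h.fin
  have hnt : Nontrivial (End F V) := ⟨⟨e, 0, he0⟩⟩
  set t : End F V := 1 - (2 : F) • e with ht
  have htt : t * t = 1 := by
    rw [ht, sub_mul, mul_sub, mul_sub, smul_mul_smul_comm, hee, one_mul, one_mul, mul_one]
    rw [mul_smul, two_smul F ((2 : F) • e)]
    abel
  have htsc : ¬ ∃ c : F, t = algebraMap F _ c := by
    rintro ⟨c, hc⟩
    -- `2 e = 1 - c`
    have h3 : (2 : F) • e = algebraMap F (End F V) (1 - c) := by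
      rw [map_sub, map_one, ← hc, ht]; abel
    have h4 : e = algebraMap F (End F V) ((2 : F)⁻¹ * (1 - c)) := by
      rw [map_mul, ← h3, Algebra.algebraMap_eq_smul_one, smul_mul_smul_comm, inv_mul_cancel₀ h2,
        one_mul, one_smul]
    set d : F := (2 : F)⁻¹ * (1 - c) with hd
    rw [h4, ← map_mul] at hee
    have h5 : d * d = d := (algebraMap F (End F V)).injective hee
    rcases eq_or_ne d 0 with h6 | h6
    · exact he0 (by rw [h4, h6, map_zero])
    · exact he1 (by rw [h4, mul_left_cancel₀ h6 (by rw [h5, mul_one] : d * d = d * 1), map_one])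
  have hcomm : Commute g t := by
    rw [ht]
    have hce : Commute g e := heg.symm
    exact (Commute.one_right g).sub_right (hce.smul_right 2)
  have htiso : Isom B t := by
    intro u v
    have h3 : B (e u) (e v) = B (e u) v := by
      rw [← hadj (e u) v]
      have : e (e u) = e u := by
        rw [← Module.End.mul_apply, hee]
      rw [this]
    rw [ht]
    simp only [LinearMap.sub_apply, Module.End.one_apply, LinearMap.smul_apply, map_sub, map_smul,
      smul_eq_mul]
    rw [h3, ← hadj u v]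
    ring
  have hspace : SpSpace F n V B (g * t) := by
    refine ⟨h.fin, h.alt, h.nondeg, h.dim, fun u v => ?_⟩
    rw [Module.End.mul_apply, Module.End.mul_apply, h.isom, htiso]
  obtain ⟨y, hy⟩ := hspace.exists_psp
  refine ⟨y, ?_⟩
  obtain ⟨c, hc⟩ := (hy _).1 (pow_orderOf_eq_one y)
  rw [hcomm.mul_pow] at hc
  -- square
  have h3 : g ^ (orderOf y * 2) = algebraMap F _ (c ^ 2) := by
    have h4 : (g ^ orderOf y * t ^ orderOf y) ^ 2 = g ^ (orderOf y * 2) := by
      rw [(hcomm.pow_pow _ _).mul_pow, ← pow_mul, ← pow_mul, mul_comm (orderOf y) 2, pow_mul t, sq t,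
        htt]
      simp
    rw [← h4, hc, map_pow]
  have h4 : orderOf x ∣ orderOf y * 2 := orderOf_dvd_of_pow_eq_one ((hx _).2 ⟨_, h3⟩)
  have h5 : orderOf x ∣ orderOf y := (hodd.coprime_two_right).dvd_of_dvd_mul_right h4
  obtain ⟨d, hd⟩ := (hx _).1 (orderOf_dvd_iff_pow_eq_one.1 h5)
  have hd0 : d ≠ 0 := by
    rintro rfl
    rw [hd, map_zero, zero_mul] at hc
    have hc0 : c = 0 := by
      by_contra hne
      exact hne ((algebraMap F (End F V)).injective (by rw [← hc, map_zero]))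
    rw [map_zero] at hd
    have h7 : ∀ k, t ^ (2 * k) = 1 := fun k => by rw [pow_mul, sq, htt, one_pow]
    -- `g` is injective
    have hinj : Function.Injective g := by
      intro u v huv
      have h8 : g (u - v) = 0 := by rw [map_sub, huv, sub_self]
      have h9 : u - v = 0 := by
        apply h.nondeg.1
        intro w
        rw [← h.isom (u - v) w, h8, map_zero, LinearMap.zero_apply]
      exact sub_eq_zero.1 h9
    have h10 : Function.Injective (g ^ orderOf y : End F V) := by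
      rw [Module.End.coe_pow]
      exact hinj.iterate _
    rw [hd] at h10
    obtain ⟨u, hu⟩ : ∃ u : V, u ≠ 0 := by
      by_contra hcon
      push Not at hcon
      exact he0 (LinearMap.ext fun u => by rw [hcon u, map_zero, map_zero])
    exact hu (h10 (by simp))
  rw [hd] at hc
  have h6 : t ^ orderOf y = algebraMap F _ (d⁻¹ * c) := by
    rw [map_mul, ← hc, ← mul_assoc, ← map_mul, inv_mul_cancel₀ hd0, map_one, one_mul]
  have h7 : 2 ∣ orderOf y := by
    by_contra hcon
    have hodd' : Odd (orderOf y) := Nat.not_even_iff_odd.1 (fun he => hcon he.two_dvd)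
    obtain ⟨k, hk⟩ := hodd'
    have h8 : t ^ orderOf y = t := by
      rw [hk, pow_succ, pow_mul, sq, htt, one_pow, one_mul]
    exact htsc ⟨_, h8.symm.trans h6⟩
  exact (hodd.coprime_two_right.symm).mul_dvd_of_dvd_of_dvd h7 h5

variable [Fintype F]

/-- The regular unipotent. -/
theorem exists_unip_sp (p m : ℕ) [Fact p.Prime] [CharP F p] (hodd : Odd (Fintype.card F))
    (hm : 1 ≤ m) :
    ∃ g : End F (Fin m ⊕ Fin m → F), SpSpace F m (Fin m ⊕ Fin m → F) (stdSp F m) g ∧
      g ^ p ^ Nat.clog p (2 * m) = 1 ∧ ∀ k, ScPow F g k → p ^ Nat.clog p (2 * m) ∣ k := by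
  have hp : p.Prime := Fact.out
  have hcard := Cfsg.Agent.S2591.result (F := F) rfl hodd hm
  have hne : Nonempty {C : ConjClasses ↥(Matrix.symplecticGroup (Fin m) F) //
      ∃ u : Matrix.symplecticGroup (Fin m) F, ConjClasses.mk u = C ∧
      ((u : Matrix (Fin m ⊕ Fin m) (Fin m ⊕ Fin m) F) - 1) ^ (2 * m) = 0 ∧
      ((u : Matrix (Fin m ⊕ Fin m) (Fin m ⊕ Fin m) F) - 1).rank = 2 * m - 1} := by
    by_contra hcon
    rw [not_nonempty_iff] at hcon
    rw [Nat.card_of_isEmpty] at hcard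
    omega
  obtain ⟨-, u, -, hu1, hu2⟩ := hne
  have hcardι : Fintype.card (Fin m ⊕ Fin m) = 2 * m := by simp; ring
  have hu3 : ∀ k, k < 2 * m → ((u : Matrix (Fin m ⊕ Fin m) (Fin m ⊕ Fin m) F) - 1) ^ k ≠ 0 := by
    intro k hk
    exact Cfsg.Agent.H176.SingleBlock.mat_pow_ne_zero (by rw [hu2, hcardι]) (by rw [hcardι]; omega)
      (by rw [hcardι]; exact hk)
  have hspace : SpSpace F m (Fin m ⊕ Fin m → F) (stdSp F m)
      (Matrix.toLinAlgEquiv' (u : Matrix (Fin m ⊕ Fin m) (Fin m ⊕ Fin m) F)) := by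
    refine ⟨inferInstance, stdSp_isAlt F m, stdSp_nondeg F m, ?_, (isom_iff_mem _).2 u.2⟩
    rw [finrank_fintype_fun_eq_card, hcardι]
  have hnz : Nonempty (Fin m ⊕ Fin m) := ⟨Sum.inl ⟨0, hm⟩⟩
  have hchar : CharP (Matrix (Fin m ⊕ Fin m) (Fin m ⊕ Fin m) F) p := inferInstance
  have hpow : ∀ j, (u : Matrix (Fin m ⊕ Fin m) (Fin m ⊕ Fin m) F) ^ p ^ j =
      1 + ((u : Matrix (Fin m ⊕ Fin m) (Fin m ⊕ Fin m) F) - 1) ^ p ^ j := by
    intro j
    rw [sub_pow_char_pow_of_commute p j (Commute.one_right _), one_pow]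
    abel
  have hone : (u : Matrix (Fin m ⊕ Fin m) (Fin m ⊕ Fin m) F) ^ p ^ Nat.clog p (2 * m) = 1 := by
    rw [hpow, pow_eq_zero_of_le (Nat.le_pow_clog hp.one_lt _) hu1, add_zero]
  have hsc : ∀ (a : Matrix (Fin m ⊕ Fin m) (Fin m ⊕ Fin m) F) k,
      ScPow F (Matrix.toLinAlgEquiv' a) k ↔ ScPow F a k := fun a k =>
    scPow_of_injective (Matrix.toLinAlgEquiv' (R := F) (n := Fin m ⊕ Fin m)).toAlgHom
      (Matrix.toLinAlgEquiv' (R := F) (n := Fin m ⊕ Fin m)).injective
  refine ⟨_, hspace, ?_, ?_⟩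
  · rw [← map_pow, hone, map_one]
  · obtain ⟨x, hx⟩ := hspace.exists_psp
    have h1 : orderOf x ∣ p ^ Nat.clog p (2 * m) := by
      apply orderOf_dvd_of_pow_eq_one
      rw [hx, hsc]
      exact ⟨1, by rw [hone, map_one]⟩
    obtain ⟨j, hj, hj2⟩ := (Nat.dvd_prime_pow hp).1 h1
    have h2 : ScPow F (u : Matrix (Fin m ⊕ Fin m) (Fin m ⊕ Fin m) F) (p ^ j) := by
      rw [← hsc, ← hx, ← hj2, pow_orderOf_eq_one]
    obtain ⟨c, hc⟩ := h2
    rw [hpow] at hc
    have h3 : ((u : Matrix (Fin m ⊕ Fin m) (Fin m ⊕ Fin m) F) - 1) ^ p ^ j =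
        algebraMap F _ (c - 1) := by
      rw [map_sub, map_one, ← hc]; abel
    have h4 : c - 1 = 0 := by
      have h5 : (algebraMap F (Matrix (Fin m ⊕ Fin m) (Fin m ⊕ Fin m) F) (c - 1)) ^ (2 * m) = 0 := by
        rw [← h3, ← pow_mul, mul_comm, pow_mul, hu1, zero_pow (pow_ne_zero _ hp.ne_zero)]
      rw [← map_pow] at h5
      have h6 : (c - 1) ^ (2 * m) = 0 :=
        (algebraMap F (Matrix (Fin m ⊕ Fin m) (Fin m ⊕ Fin m) F)).injective (by rw [h5, map_zero])
      exact pow_eq_zero_iff (by omega) |>.1 h6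
    rw [h4, map_zero] at h3
    have h5 : 2 * m ≤ p ^ j := by
      by_contra hcon
      exact hu3 _ (by omega) h3
    have h6 : j = Nat.clog p (2 * m) :=
      le_antisymm hj ((Nat.clog_le_iff_le_pow hp.one_lt).2 h5)
    intro k hk
    rw [← h6, ← hj2]
    exact orderOf_dvd_of_pow_eq_one ((hx k).2 hk)

end Cfsg.Agent.H159
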