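import Cfsg.Agent.H159.UniDich

/-!
**The dichotomy for `PSU_n(q)`**: every element has order dividing the order of an element of order
divisible by `r` (`r ∣ q + 1` prime, `r ∤ n`), or its order divides
`(q^n-(-1)^n)/((q+1) gcd(n,q+1)) * p^e`, `n ≤ p^e`.
-/

set_option autoImplicit false

namespace Cfsg.Agent.H159

open Polynomial Module
open Cfsg.Agent.H186 (st st_mul st_one st_add st_smul st_st st_algebraMap mem_GU_iff_st st_apply)

variable {F : Type*} [Field F] [Fintype F] {q : ℕ}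

theorem psu_dich (hK : Fintype.card F = q ^ 2) {n p a e r : ℕ} [Fact p.Prime] [CharP F p]
    (hqp : q = p ^ a) (hn : 3 ≤ n) (he : n ≤ p ^ e)
    (hr : r.Prime) (hrq : r ∣ q + 1) (hrn : ¬ r ∣ n) (x : Cfsg.PSU n F q) :
    (∃ y : Cfsg.PSU n F q, orderOf x ∣ orderOf y ∧ r ∣ orderOf y) ∨
      orderOf x ∣ (uz q n).natAbs / Nat.gcd n (q + 1) * p ^ e := by
  obtain ⟨σ, hσ⟩ := Cfsg.Agent.ClassicalGeometry.GUBasic.exists_powHom hK
  have hσσ : ∀ c, σ (σ c) = c := fun c => by
    rw [hσ, hσ, ← pow_mul, ← sq, ← hK, FiniteField.pow_card]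
  obtain ⟨g, hg, hdet, hx⟩ := exists_mat_of_psu hK hn x
  have hxo : ∀ {y : Cfsg.PSU n F q}, (∀ m, y ^ m = 1 → ScPow F g m) → orderOf x ∣ orderOf y :=
    fun {y} h => orderOf_dvd_of_pow_eq_one ((hx _).2 (h _ (pow_orderOf_eq_one y)))
  have hμne : minpoly F g ≠ 0 := minpoly.ne_zero (Algebra.IsIntegral.isIntegral _)
  have hμmon : (minpoly F g).Monic := minpoly.monic (Algebra.IsIntegral.isIntegral _)
  have hgg' : g * st q g = 1 := mul_eq_one_comm.1 hg
  have hdeg : (minpoly F g).natDegree ≤ n := by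
    refine le_trans (Polynomial.natDegree_le_of_dvd (Matrix.minpoly_dvd_charpoly g)
      (Matrix.charpoly_monic g).ne_zero) ?_
    rw [Matrix.charpoly_natDegree_eq_dim, Fintype.card_fin]
  have hnt : Nontrivial (Matrix (Fin n) (Fin n) F) := by
    have : Nonempty (Fin n) := ⟨⟨0, by omega⟩⟩
    infer_instance
  have hμ0 : (minpoly F g).coeff 0 ≠ 0 := by
    intro h
    obtain ⟨c, hc⟩ := X_dvd_iff.2 h
    have h1 := congrArg (aeval g) hc
    rw [minpoly.aeval, map_mul, aeval_X] at h1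
    have h2 : aeval g c = 0 := by
      have h3 := congrArg (fun z => st q g * z) h1
      simp only [mul_zero] at h3
      rw [← mul_assoc, hg, one_mul] at h3
      exact h3.symm
    have h4 := minpoly.dvd F g h2
    have hc0 : c ≠ 0 := by rintro rfl; rw [mul_zero] at hc; exact hμne hc
    have h5 := natDegree_le_of_dvd h4 hc0
    rw [hc, natDegree_X_mul hc0] at h5
    omega
  have hself := uni_selfdual hK σ hσ g hg hμ0
  have hdeg0 : (minpoly F g).natDegree ≠ 0 := by
    have := minpoly.natDegree_pos (Algebra.IsIntegral.isIntegral (R := F) g)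
    omega
  rcases Nat.lt_or_ge (minpoly F g).natDegree n with hlt | hge
  · -- small degree
    left
    obtain ⟨B, hB, hBμ⟩ := exists_gu_minpoly hK σ hσ hμmon hμ0 hself rfl
    obtain ⟨h, e', h1, h2, h3, h4, h5, h6, h7, h8⟩ := exists_block hK hdeg0
      (k := n - (minpoly F g).natDegree) (by omega) B hB
    obtain ⟨y, hy1, hy2⟩ := exists_psu_mul_r hK hn (by
      rw [Fintype.card_sum, Fintype.card_fin, Fintype.card_fin]; omega) hr hrq hrn h e' h1 h2 h3 h4
        h5 h6 h7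
    refine ⟨y, hxo fun m hm => ?_, hy2⟩
    have h9 := h8 m (hy1 m hm)
    rw [scPow_iff_dvd] at h9 ⊢
    rw [hBμ] at h9
    exact h9
  have hdeg' : (minpoly F g).natDegree = n := le_antisymm hdeg hge
  have hnu : ¬ IsUnit (minpoly F g) := minpoly.not_isUnit F g
  obtain ⟨f, hfmon, hf, hfdvd⟩ := Polynomial.exists_monic_irreducible_factor _ hnu
  have hf0 : f.coeff 0 ≠ 0 := by
    obtain ⟨c, hc⟩ := hfdvd
    rw [hc, mul_coeff_zero] at hμ0
    exact left_ne_zero_of_mul hμ0
  obtain ⟨A, b, k, hk, hab, hcop, hda, hdb, hcase⟩ :=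
    selfdual_factor σ hσσ hμ0 hself hf hfdvd
  by_cases hbu : IsUnit b
  · right
    apply orderOf_dvd_of_pow_eq_one
    rw [hx]
    have hassoc : Associated (minpoly F g) A := by
      rw [hab]; exact associated_mul_unit_left _ _ hbu
    refine uni_primary hK p a hqp σ hσ he g hdet rfl hf hfmon hf0 hdeg' (k := k) ?_
    rcases hcase with ⟨h1, h2⟩ | ⟨h1, h2⟩
    · exact Or.inl ⟨h1 ▸ hassoc, h2⟩
    · exact Or.inr ⟨h1 ▸ hassoc, h2⟩
  · left
    have hau : ¬ IsUnit A := by
      intro h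
      rcases hcase with ⟨h3, -⟩ | ⟨h3, -⟩
      · rw [h3] at h
        exact hf.not_isUnit ((isUnit_pow_iff hk).1 h)
      · rw [h3] at h
        exact hf.not_isUnit ((isUnit_pow_iff hk).1 (isUnit_of_mul_isUnit_left h))
    obtain ⟨e', h1, h2, h3, h4, h5⟩ := uni_idempotent hK σ hσ g hg hab hcop hau hbu hda hdb
    obtain ⟨y, hy1, hy2⟩ := exists_psu_mul_r hK hn (Fintype.card_fin n) hr hrq hrn g e' hg hdet h1
      h2 h3 h4 h5
    exact ⟨y, hxo hy1, hy2⟩

end Cfsg.Agent.H159
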